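import Cfsg.Agent.H112.HT.Ind
import Cfsg.Agent.CharactersDeep.MaxInduced
import Cfsg.Agent.H133.PB.Basic
import Cfsg.Agent.H316.HT.Defs

/-!
# S4933: characters induced from linear characters of `p`-power order, over a normal subgroup (helper279)

* `base` : `J = N H`, `l` linear of `p`-power order on `H`, Mackey's criterion on `N`: the induced character is
  irreducible, in `B₀(J)`, its restriction to `N` is irreducible, in `B₀(N)`, of degree `|N : N ∩ H|`;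
* `exists_ind_sup` : the same for `N P ≤ A`.
-/

set_option autoImplicit false

open Cfsg Subgroup
open Cfsg.Agent.H316.HT

namespace Cfsg.Agent.H279.HT.Ind

universe u

variable {p : ℕ} [hp : Fact p.Prime] {M : Ideal AlgInt}

theorem base (hM : IsPModular p M) {J : Type u} [Group J] [Fintype J] (N : Subgroup J) [hNn : N.Normal] (H : Subgroup J)
    (hNH : N ⊔ H = ⊤) (l : H →* ℂˣ) (hl : ∃ k : ℕ, l ^ p ^ k = 1)
    (mack : ∀ x ∈ N, (∀ (a b : H), (a : J) ∈ N → (b : J) = x * a * x⁻¹ → l a = l b) → x ∈ H) :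
    ∃ ξ : IrrCharacter J, ξ ∈ principalBlock M J ∧ ∃ ψ : IrrCharacter N, ψ ∈ principalBlock M N ∧
      (∀ n : N, (ξ : J → ℂ) n = (ψ : N → ℂ) n) ∧ charDegree (ψ : N → ℂ) = (H.subgroupOf N).index := by
  classical
  have hsup : ∀ g : J, ∃ x ∈ N, ∃ y ∈ H, x * y = g := by
    intro g
    have hg : g ∈ N ⊔ H := hNH ▸ mem_top g
    rw [← SetLike.mem_coe, Subgroup.normal_mul] at hg
    exact Set.mem_mul.1 hg
  obtain ⟨ξ, h1, h2, -⟩ := H112.HT.exists_mackey hM H l hl (by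
    intro g hg
    obtain ⟨x, hx, y, hy, rfl⟩ := hsup g
    refine mul_mem (mack x hx ?_) hy
    intro a b haN hb
    have h3 := hg (⟨y, hy⟩⁻¹ * a * ⟨y, hy⟩) b (by
      rw [hb]
      show x * a * x⁻¹ = x * y * (y⁻¹ * a * y) * (x * y)⁻¹
      group)
    rw [← h3, map_mul, map_mul, map_inv, mul_right_comm, inv_mul_cancel, one_mul])
  -- the restriction
  have := Fintype.ofFinite N
  let K : Subgroup N := H.subgroupOf N
  let l' : K →* ℂˣ := l.comp
    { toFun := fun x => ⟨((x : N) : J), mem_subgroupOf.1 x.2⟩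
      map_one' := rfl
      map_mul' := fun _ _ => rfl }
  obtain ⟨ψ, h3, h4, h5⟩ := H112.HT.exists_mackey hM K l' (by
    obtain ⟨k, hk⟩ := hl
    refine ⟨k, MonoidHom.ext fun x => ?_⟩
    have := congrArg (fun f : H →* ℂˣ => f ⟨((x : N) : J), mem_subgroupOf.1 x.2⟩) hk
    exact this) (by
    intro g hg
    refine mem_subgroupOf.2 (mack g g.2 ?_)
    intro a b haN hb
    have hbN : (b : J) ∈ N := hb ▸ hNn.conj_mem _ haN _
    exact hg ⟨⟨a, haN⟩, mem_subgroupOf.2 a.2⟩ ⟨⟨b, hbN⟩, mem_subgroupOf.2 b.2⟩ (Subtype.ext hb))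
  refine ⟨ξ, h1, ψ, h3, ?_, h5⟩
  intro n
  rw [h2, h4, CharactersDeep.MaxInduced.indFun_restrict N H hNH _
    (Cfsg.Agent.Characters.Core.isIrr_isClassFunction (CharDeep.LinearChar.isIrrCharacter_of_hom l)) n]
  rfl

theorem exists_ind_sup (hM : IsPModular p M) {A : Type u} [Group A] [Finite A] (N : Subgroup A) [hNn : N.Normal]
    (P H : Subgroup A) (hH : H ≤ N ⊔ P) (hP : P ≤ N ⊔ H) (l : H →* ℂˣ) (hl : ∃ k : ℕ, l ^ p ^ k = 1)
    (mack : ∀ x ∈ N, (∀ (a b : H), (a : A) ∈ N → (b : A) = x * a * x⁻¹ → l a = l b) → x ∈ H) :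
    ∃ ξ : IrrCharacter (N ⊔ P : Subgroup A), ξ ∈ principalBlock M (N ⊔ P : Subgroup A) ∧
      ∃ ψ : IrrCharacter N, ψ ∈ principalBlock M N ∧
        (∀ n : N, (ξ : (N ⊔ P : Subgroup A) → ℂ) ⟨n, mem_sup_left n.2⟩ = (ψ : N → ℂ) n) ∧
        charDegree (ψ : N → ℂ) = (H.subgroupOf N).index := by
  classical
  have hMp : M.IsPrime := hM.2.1.isPrime
  obtain ⟨J, hJ⟩ : ∃ J : Subgroup A, J = N ⊔ P := ⟨_, rfl⟩
  have hNJ : N ≤ J := hJ ▸ le_sup_left
  have hHJ : H ≤ J := hJ ▸ hH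
  have := Fintype.ofFinite J
  let e : H.subgroupOf J ≃* H := subgroupOfEquivOfLe hHJ
  let e' : N.subgroupOf J ≃* N := subgroupOfEquivOfLe hNJ
  obtain ⟨ξ, h1, ψ, h2, h3, h4⟩ := base hM (N.subgroupOf J) (H.subgroupOf J) (by
      rw [← Subgroup.subgroupOf_sup hNJ hHJ, subgroupOf_eq_top, hJ]
      exact sup_le le_sup_left hP) (l.comp e.toMonoidHom) (by
      obtain ⟨k, hk⟩ := hl
      refine ⟨k, MonoidHom.ext fun x => ?_⟩
      exact congrArg (fun f : H →* ℂˣ => f (e x)) hk) (by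
      intro x hx h
      rw [mem_subgroupOf] at hx ⊢
      refine mack x hx ?_
      intro a b haN hb
      exact h ⟨⟨a, hHJ a.2⟩, mem_subgroupOf.2 a.2⟩ ⟨⟨b, hHJ b.2⟩, mem_subgroupOf.2 b.2⟩ (mem_subgroupOf.2 haN)
        (Subtype.ext hb))
  have h5 : ((H.subgroupOf J).subgroupOf (N.subgroupOf J)).index = (H.subgroupOf N).index := by
    have h6 : (H.subgroupOf J).subgroupOf (N.subgroupOf J) = (H.subgroupOf N).comap e'.toMonoidHom := by
      ext x
      rfl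
    rw [h6, Subgroup.index_comap_of_surjective _ e'.surjective]
  subst hJ
  refine ⟨ξ, h1, ⟨fun n => (ψ : N.subgroupOf (N ⊔ P) → ℂ) (e'.symm n),
    Cfsg.Agent.Characters.Core.isIrr_comp e'.symm.toMonoidHom e'.symm.surjective ψ.2⟩,
    H133.PB.mem_principalBlock_comp e'.symm.toMonoidHom e'.symm.surjective h2, ?_, ?_⟩
  · intro n
    exact h3 ⟨⟨n, mem_sup_left n.2⟩, mem_subgroupOf.2 n.2⟩
  · rw [← h5, ← h4]
    unfold charDegree
    have : e'.symm 1 = 1 := map_one _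
    show ⌊((ψ : N.subgroupOf (N ⊔ P) → ℂ) (e'.symm 1)).re⌋₊ = _
    rw [this]

end Cfsg.Agent.H279.HT.Ind
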