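import Mathlib

/-!
# S4933, `PSL_n`, `p ∣ q - 1`: the labelling of the coordinates (helper279)

`exists_lab` : for an odd prime `p ≤ n`, `(n, p) ≠ (3, 3)`, there is `e : Fin n → ZMod p` with `∑ e = 0`, fibres not all
of the same size and `v_p (n! / ∏ (fibre)!) = 1`.
-/

set_option autoImplicit false

namespace Cfsg.Agent.H279.HT.Num

open Nat

/-- the exponent of `p` in `n!` -/
def V (p n : ℕ) : ℕ := (n !).factorization p

theorem V_eq (p n : ℕ) [Fact p.Prime] : V p n = padicValNat p (n !) := by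
  rw [V, Nat.factorization_def _ (Fact.out : p.Prime)]

theorem V_mul_add {p : ℕ} [Fact p.Prime] (n : ℕ) {m : ℕ} (hm : m < p) : V p (p * n + m) = V p n + n := by
  rw [V_eq, V_eq, padicValNat_factorial_mul_add n hm, padicValNat_factorial_mul]

theorem V_mul {p : ℕ} [Fact p.Prime] (n : ℕ) : V p (p * n) = V p n + n := by
  rw [V_eq, V_eq, padicValNat_factorial_mul]

theorem V_lt {p : ℕ} [Fact p.Prime] {m : ℕ} (hm : m < p) : V p m = 0 := by
  have h := V_mul_add (p := p) 0 hm
  simpa [V] using h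

theorem V_succ {p : ℕ} [Fact p.Prime] (n : ℕ) : V p (n + 1) = V p n + (n + 1).factorization p := by
  rw [V, V, Nat.factorial_succ, Nat.factorization_mul (Nat.succ_ne_zero n) (Nat.factorial_ne_zero n)]
  simp [add_comm]

/-- `v_p (C(p^(i+1) m, p^i)) = 1` -/
theorem V_choose {p : ℕ} [Fact p.Prime] {m : ℕ} (hm : ¬ p ∣ m) (i : ℕ) :
    V p (p ^ (i + 1) * m) = V p (p ^ i) + V p (p ^ (i + 1) * m - p ^ i) + 1 := by
  have hp : 0 < p := (Fact.out : p.Prime).pos
  have hm0 : 0 < m := by
    rcases Nat.eq_zero_or_pos m with h | h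
    · subst h; exact absurd (dvd_zero p) hm
    · exact h
  induction i with
  | zero =>
    have h1 : 0 < p * m := Nat.mul_pos hp hm0
    obtain ⟨k, hk⟩ := Nat.exists_eq_succ_of_ne_zero h1.ne'
    have h2 : (p * m).factorization p = 1 := by
      rw [Nat.factorization_mul hp.ne' hm0.ne', Finsupp.add_apply, (Fact.out : p.Prime).factorization_self,
        Nat.factorization_eq_zero_of_not_dvd hm]
    rw [pow_zero, zero_add, pow_one, hk, Nat.succ_sub_one, Nat.succ_eq_add_one, V_succ, ← Nat.succ_eq_add_one, ← hk, h2,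
      V_lt (Fact.out : p.Prime).one_lt]
    omega
  | succ i ih =>
    have e1 : p ^ (i + 1 + 1) * m = p * (p ^ (i + 1) * m) := by rw [pow_succ']; ring
    have e2 : p ^ (i + 1) = p * p ^ i := pow_succ' _ _
    have hle : p ^ i ≤ p ^ (i + 1) * m :=
      (Nat.pow_le_pow_right hp (Nat.le_succ i)).trans (Nat.le_mul_of_pos_right _ hm0)
    have e3 : p ^ (i + 1 + 1) * m - p ^ (i + 1) = p * (p ^ (i + 1) * m - p ^ i) := by
      rw [e1, Nat.mul_sub, ← e2]
    have e4 : V p (p ^ (i + 1)) = V p (p ^ i) + p ^ i := by rw [e2, V_mul]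
    rw [e3, e4, e1, V_mul, V_mul, ih]
    omega

/-- the shape of the fibres -/
structure Lab (p n : ℕ) [Fact p.Prime] (e : Fin n → ZMod p) : Prop where
  sum : ∑ i, e i = 0
  ne : ∃ v w : ZMod p, (Finset.univ.filter fun i => e i = v).card ≠ (Finset.univ.filter fun i => e i = w).card
  val : V p n = ∑ v : ZMod p, V p (Finset.univ.filter fun i => e i = v).card + 1

/-- three blocks -/
def lab {X : Type*} (x y z : X) (a b n : ℕ) : Fin n → X := fun i => if i.1 < a then x else if i.1 < a + b then y else z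

theorem sum_lab {X M : Type*} [AddCommMonoid M] (g : X → M) (x y z : X) (a b c : ℕ) :
    ∑ i : Fin (a + b + c), g (lab x y z a b (a + b + c) i) = a • g x + b • g y + c • g z := by
  have h1 := Fin.sum_univ_eq_sum_range
    (fun i : ℕ => g (if i < a then x else if i < a + b then y else z)) (a + b + c)
  have h2 : ∑ i : Fin (a + b + c), g (lab x y z a b (a + b + c) i) =
      ∑ i : Fin (a + b + c), (fun i : ℕ => g (if i < a then x else if i < a + b then y else z)) (i : ℕ) := rfl
  rw [h2, h1, Finset.sum_range_add, Finset.sum_range_add]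
  congr 1
  · congr 1
    · rw [Finset.sum_congr rfl (g := fun _ => g x), Finset.sum_const, Finset.card_range]
      intro i hi
      rw [if_pos (Finset.mem_range.1 hi)]
    · rw [Finset.sum_congr rfl (g := fun _ => g y), Finset.sum_const, Finset.card_range]
      intro i hi
      have := Finset.mem_range.1 hi
      rw [if_neg (by omega), if_pos (by omega)]
  · rw [Finset.sum_congr rfl (g := fun _ => g z), Finset.sum_const, Finset.card_range]
    intro i hi
    rw [if_neg (by omega), if_neg (by omega)]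

theorem card_lab {X : Type*} [DecidableEq X] (x y z : X) (a b c : ℕ) (v : X) :
    (Finset.univ.filter fun i => lab x y z a b (a + b + c) i = v).card =
      a * (if x = v then 1 else 0) + b * (if y = v then 1 else 0) + c * (if z = v then 1 else 0) := by
  rw [Finset.card_filter]
  have := sum_lab (fun w : X => if w = v then (1 : ℕ) else 0) x y z a b c
  simp only [smul_eq_mul] at this
  exact this

variable {p : ℕ} [Fact p.Prime]

theorem one_ne_neg_one (hp3 : 3 ≤ p) : (1 : ZMod p) ≠ -1 := by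
  intro h
  have h2 : ((2 : ℕ) : ZMod p) = 0 := by
    have : (1 : ZMod p) + 1 = 0 := by nth_rewrite 2 [h]; exact add_neg_cancel 1
    push_cast
    rw [← this]; norm_num
  rw [ZMod.natCast_eq_zero_iff] at h2
  exact absurd (Nat.le_of_dvd (by norm_num) h2) (by omega)

theorem lab_of (hp3 : 3 ≤ p) {a b c : ℕ} (ha : 0 < a) (hab : (a : ZMod p) = b) (hne : ¬ (p = 3 ∧ a = b ∧ b = c))
    (hV : V p (a + b + c) = V p a + V p b + V p c + 1) :
    Lab p (a + b + c) (lab (1 : ZMod p) (-1) 0 a b (a + b + c)) := by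
  have h1 : (1 : ZMod p) ≠ -1 := one_ne_neg_one hp3
  have h10 : (1 : ZMod p) ≠ 0 := one_ne_zero
  have hm0 : (-1 : ZMod p) ≠ 0 := neg_ne_zero.2 h10
  have c1 : (Finset.univ.filter fun i => lab (1 : ZMod p) (-1) 0 a b (a + b + c) i = 1).card = a := by
    rw [card_lab, if_pos rfl, if_neg h1.symm, if_neg h10.symm]; ring
  have cm : (Finset.univ.filter fun i => lab (1 : ZMod p) (-1) 0 a b (a + b + c) i = -1).card = b := by
    rw [card_lab, if_neg h1, if_pos rfl, if_neg hm0.symm]; ring
  have c0 : (Finset.univ.filter fun i => lab (1 : ZMod p) (-1) 0 a b (a + b + c) i = 0).card = c := by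
    rw [card_lab, if_neg h10, if_neg hm0, if_pos rfl]; ring
  have cv : ∀ v : ZMod p, v ≠ 1 → v ≠ -1 → v ≠ 0 →
      (Finset.univ.filter fun i => lab (1 : ZMod p) (-1) 0 a b (a + b + c) i = v).card = 0 := by
    intro v h1 h2 h3
    rw [card_lab, if_neg h1.symm, if_neg h2.symm, if_neg h3.symm]; ring
  refine ⟨?_, ?_, ?_⟩
  · have := sum_lab (fun w : ZMod p => w) 1 (-1) 0 a b c
    rw [this]
    simp [hab]
  · by_contra hcon
    push Not at hcon
    have e1 : a = b := c1.symm.trans ((hcon _ _).trans cm)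
    have e2 : b = c := cm.symm.trans ((hcon _ _).trans c0)
    apply hne
    refine ⟨?_, e1, e2⟩
    by_contra h3
    have h5 : 3 < p := lt_of_le_of_ne hp3 (Ne.symm h3)
    have hk : ∀ k : ℕ, 0 < k → k < p → ((k : ℕ) : ZMod p) ≠ 0 := by
      intro k hk0 hk h
      rw [ZMod.natCast_eq_zero_iff] at h
      exact absurd (Nat.le_of_dvd hk0 h) (by omega)
    have h2a : (2 : ZMod p) ≠ 1 := by
      intro h
      apply hk 1 (by norm_num) (by omega)
      have : (2 : ZMod p) - 1 = 0 := by rw [h]; ring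
      push_cast
      rw [← this]; ring
    have h2b : (2 : ZMod p) ≠ -1 := by
      intro h
      apply hk 3 (by norm_num) (by omega)
      have : (2 : ZMod p) + 1 = 0 := by rw [h]; ring
      push_cast
      rw [← this]; ring
    have h2c : (2 : ZMod p) ≠ 0 := by
      have := hk 2 (by norm_num) (by omega)
      exact_mod_cast this
    have := hcon 1 2
    rw [c1, cv 2 h2a h2b h2c] at this
    omega
  · rw [hV]
    congr 1
    rw [← Finset.sum_subset (Finset.subset_univ ({1, -1, 0} : Finset (ZMod p)))]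
    · rw [Finset.sum_insert (by simp [h1]), Finset.sum_insert (by simp), Finset.sum_singleton, c1, cm, c0]
      ring
    · intro v _ hv
      simp only [Finset.mem_insert, Finset.mem_singleton, not_or] at hv
      rw [cv v hv.1 hv.2.1 hv.2.2]
      exact V_lt (Fact.out : p.Prime).pos

/-- **The labelling.** -/
theorem exists_lab (hp3 : 3 ≤ p) {n : ℕ} (hn : p ≤ n) (hne : ¬ (p = 3 ∧ n = 3)) : ∃ e : Fin n → ZMod p, Lab p n e := by
  have hp : 0 < p := by omega
  obtain ⟨k, r, hr, rfl⟩ : ∃ k r, r < p ∧ n = p * k + r := ⟨n / p, n % p, Nat.mod_lt _ hp, (Nat.div_add_mod n p).symm⟩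
  have hk0 : 0 < k := by
    rcases Nat.eq_zero_or_pos k with h | h
    · subst h; omega
    · exact h
  by_cases hk : p ∣ k
  · obtain ⟨i, m, hm, hkm⟩ := Nat.exists_eq_pow_mul_and_not_dvd hk0.ne' p (Fact.out : p.Prime).one_lt.ne'
    have hi : i ≠ 0 := by
      rintro rfl
      rw [pow_zero, one_mul] at hkm
      exact hm (hkm ▸ hk)
    obtain ⟨l, rfl⟩ := Nat.exists_eq_succ_of_ne_zero hi
    have hm0 : 0 < m := by
      rcases Nat.eq_zero_or_pos m with h | h
      · subst h; exact absurd (dvd_zero p) hm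
      · exact h
    have hpos : p ^ l ≤ p ^ (l + 1) * m :=
      (Nat.pow_le_pow_right hp (Nat.le_succ l)).trans (Nat.le_mul_of_pos_right _ hm0)
    have e1 : p * k - p ^ (l + 1) = p * (p ^ (l + 1) * m - p ^ l) := by
      rw [hkm, Nat.mul_sub, ← pow_succ']
    have hle : p ^ (l + 1) ≤ p * k := by
      rw [pow_succ' p l]
      exact Nat.mul_le_mul_left _ (hpos.trans (le_of_eq hkm.symm))
    have hsum : p * k + r = p ^ (l + 1) + 0 + (p * (p ^ (l + 1) * m - p ^ l) + r) := by rw [← e1]; omega
    have key := V_choose (p := p) hm (l + 1)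
    have e2 : p ^ (l + 1 + 1) * m = p * k := by rw [hkm, Nat.succ_eq_add_one]; ring
    rw [e2, e1] at key
    rw [hsum]
    refine ⟨_, lab_of hp3 (pow_pos hp _) ?_ ?_ ?_⟩
    · push_cast
      rw [ZMod.natCast_self]
      simp
    · rintro ⟨-, h, -⟩
      exact (pow_pos hp (l + 1)).ne' h
    · rw [← hsum, V_mul_add k hr, V_mul_add _ hr, V_lt hp, ← V_mul k, key, V_mul]
      omega
  · have hsum : p * k + r = (r / 2 + 1) + (r / 2 + 1) + (p * (k - 1) + (r + p - 2 * (r / 2 + 1))) := by
      obtain ⟨k', rfl⟩ := Nat.exists_eq_succ_of_ne_zero hk0.ne'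
      rw [Nat.succ_sub_one, Nat.succ_eq_add_one, Nat.mul_add]
      omega
    have ha : r / 2 + 1 < p := by omega
    have hr' : r + p - 2 * (r / 2 + 1) < p := by omega
    have hVk : V p (p * k + r) = V p (k - 1) + k := by
      rw [V_mul_add k hr]
      obtain ⟨k', rfl⟩ := Nat.exists_eq_succ_of_ne_zero hk0.ne'
      rw [Nat.succ_sub_one, Nat.succ_eq_add_one, V_succ, Nat.factorization_eq_zero_of_not_dvd hk, add_zero]
    have hne' : ¬ (p = 3 ∧ p * k + r = 3) := hne
    rw [hsum] at hVk ⊢
    refine ⟨_, lab_of hp3 (Nat.succ_pos _) rfl ?_ ?_⟩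
    · rintro ⟨rfl, -, h⟩
      omega
    · rw [hVk, V_lt ha, V_mul_add _ hr']
      omega

end Cfsg.Agent.H279.HT.Num
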